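import Mathlib.GroupTheory.Perm.Cycle.Type
import Mathlib.GroupTheory.Perm.Centralizer
import Mathlib.Tactic

/-!
# Permutations whose `r`-th power is trivial, `r` prime

They are determined up to conjugacy by the number of moved points, which may be any multiple of `r`.
-/

set_option autoImplicit false

namespace CfsgLib.PrimeCycles55

open Equiv

variable {α β : Type*} [Finite α] [Finite β] {r : ℕ}

/-- The number of moved points. -/
noncomputable def moved (σ : Perm α) : ℕ := Nat.card {x // σ x ≠ x}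

theorem moved_eq_support [Fintype α] [DecidableEq α] (σ : Perm α) :
    moved σ = σ.support.card := by
  rw [moved, Nat.card_eq_fintype_card, Fintype.card_subtype]
  rfl

theorem moved_add_fixed (σ : Perm α) : moved σ + Nat.card {x // σ x = x} = Nat.card α := by
  classical
  rw [moved, add_comm, ← Nat.card_sum]
  exact Nat.card_congr (Equiv.sumCompl _)

theorem moved_le (σ : Perm α) : moved σ ≤ Nat.card α :=
  (moved_add_fixed σ) ▸ Nat.le_add_right _ _

theorem pow_eq_one_of_orderOf {σ : Perm α} (h : orderOf σ = r) : σ ^ r = 1 := h ▸ pow_orderOf_eq_one σ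

theorem orderOf_eq_of_moved [Fact r.Prime] {σ : Perm α} (h : σ ^ r = 1) (hm : 0 < moved σ) :
    orderOf σ = r := by
  refine orderOf_eq_prime h fun h1 => ?_
  subst h1
  simp [moved] at hm

theorem moved_pos [Fact r.Prime] {σ : Perm α} (h : orderOf σ = r) : 0 < moved σ := by
  rw [moved, Nat.card_pos_iff]
  refine ⟨?_, inferInstance⟩
  by_contra hne
  rw [not_nonempty_iff] at hne
  have h1 : σ = 1 := Equiv.ext fun x => not_not.1 fun hx => hne.false ⟨x, hx⟩
  rw [h1, orderOf_one] at h
  exact (Fact.out : r.Prime).one_lt.ne h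

theorem dvd_moved [Fact r.Prime] {σ : Perm α} (h : σ ^ r = 1) : r ∣ moved σ := by
  classical
  haveI := Fintype.ofFinite α
  rw [moved_eq_support, ← Perm.sum_cycleType, Perm.cycleType_of_pow_prime_eq_one h,
    Multiset.sum_replicate, smul_eq_mul]
  exact dvd_mul_left _ _

/-- The fixed points in an invariant set, modulo `r`. -/
theorem card_fixed_modEq [Fact r.Prime] {σ : Perm α} (h : σ ^ r = 1) :
    Nat.card {x // σ x = x} ≡ Nat.card α [MOD r] := by
  conv_rhs => rw [← moved_add_fixed σ]
  exact (Nat.modEq_iff_dvd' (Nat.le_add_left _ _)).2 (by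
    rw [Nat.add_sub_cancel_right]; exact dvd_moved h)

theorem exists_moved (α : Type*) [Finite α] [Fact r.Prime] {c : ℕ} (hc : c * r ≤ Nat.card α) :
    ∃ σ : Perm α, σ ^ r = 1 ∧ moved σ = c * r := by
  classical
  haveI := Fintype.ofFinite α
  obtain ⟨σ, hσ⟩ := (Perm.exists_with_cycleType_iff α (m := Multiset.replicate c r)).2
    ⟨by rwa [Multiset.sum_replicate, smul_eq_mul, ← Nat.card_eq_fintype_card],
      fun a ha => (Multiset.eq_of_mem_replicate ha).symm ▸ (Fact.out : r.Prime).two_le⟩
  refine ⟨σ, Perm.pow_prime_eq_one_iff.2 fun a ha => Multiset.eq_of_mem_replicate (hσ ▸ ha), ?_⟩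
  rw [moved_eq_support, ← Perm.sum_cycleType, hσ, Multiset.sum_replicate, smul_eq_mul]

/-- Equally many moved points give conjugate permutations. -/
theorem exists_conj_equiv [Fact r.Prime] {σ : Perm α} {τ : Perm β} (hσ : σ ^ r = 1) (hτ : τ ^ r = 1)
    (hcard : Nat.card α = Nat.card β) (hm : moved σ = moved τ) :
    ∃ e : α ≃ β, ∀ x, e (σ x) = τ (e x) := by
  classical
  haveI := Fintype.ofFinite α
  obtain ⟨e₀⟩ : Nonempty (α ≃ β) := Finite.card_eq.1 hcard
  set τ' : Perm α := (e₀.trans τ).trans e₀.symm with hτ'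
  have hτ'x : ∀ x, τ' x = e₀.symm (τ (e₀ x)) := fun x => rfl
  have hpow : ∀ k : ℕ, ∀ x, (τ' ^ k) x = e₀.symm ((τ ^ k) (e₀ x)) := by
    intro k
    induction k with
    | zero => simp
    | succ k ih => intro x; rw [pow_succ', pow_succ', Perm.mul_apply, Perm.mul_apply, ih, hτ'x,
        Equiv.apply_symm_apply]
  have hτ'r : τ' ^ r = 1 := Equiv.ext fun x => by simp [hpow, hτ]
  have hm' : moved τ' = moved τ := Nat.card_congr (e₀.subtypeEquiv fun x => by
    rw [hτ'x, not_iff_not]
    exact ⟨fun h => by rw [← e₀.apply_symm_apply (τ (e₀ x)), h],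
      fun h => by rw [h, e₀.symm_apply_apply]⟩)
  have hct : σ.cycleType = τ'.cycleType := by
    rw [Perm.cycleType_of_pow_prime_eq_one hσ, Perm.cycleType_of_pow_prime_eq_one hτ'r]
    congr 1
    have h1 := Perm.sum_cycleType σ
    have h2 := Perm.sum_cycleType τ'
    rw [Perm.cycleType_of_pow_prime_eq_one hσ, Multiset.sum_replicate, smul_eq_mul,
      ← moved_eq_support, hm, ← hm'] at h1
    rw [Perm.cycleType_of_pow_prime_eq_one hτ'r, Multiset.sum_replicate, smul_eq_mul,
      ← moved_eq_support] at h2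
    exact Nat.eq_of_mul_eq_mul_right (Fact.out : r.Prime).pos (h1.trans h2.symm)
  obtain ⟨u, hu⟩ := isConj_iff.1 (Perm.isConj_iff_cycleType_eq.2 hct)
  refine ⟨u.trans e₀, fun x => ?_⟩
  show e₀ (u (σ x)) = τ (e₀ (u x))
  have h := congrArg (fun w : Perm α => e₀ (w (u x))) hu
  simpa [hτ'x] using h

/-- A congruent lower bound modulo `r`. -/
theorem mod_le_of_modEq {m n : ℕ} (h : m ≡ n [MOD r]) : n % r ≤ m :=
  h ▸ Nat.mod_le m r

end CfsgLib.PrimeCycles55
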